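import Cfsg.Agent.Lib.Helper58.G2Syl.Defs

set_option autoImplicit false

/-! # G2Syl farm, piece E0: matrices versus linear equivalences -/

namespace Cfsg.Agent.Lib.Helper97.G2Syl

open Cfsg Cfsg.Lie Cfsg.Agent.Lib.Helper58.WrSyl Cfsg.Agent.Lib.Helper58.G2Syl
open scoped MatrixGroups
open Matrix.GeneralLinearGroup (scalar det)

/-- the standard isomorphism `GL₈(F) ≃* (F⁸ ≃ₗ F⁸)` -/
noncomputable def E0_eps (F : Type*) [Field F] : GL (Fin 8) F ≃* L8 F :=
  Matrix.GeneralLinearGroup.toLin.trans (LinearMap.GeneralLinearGroup.generalLinearEquiv F (Fin 8 → F))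

theorem E0_eps_apply (F : Type*) [Field F] (g : GL (Fin 8) F) (x : Fin 8 → F) :
    E0_eps F g x = (g : Matrix (Fin 8) (Fin 8) F).mulVec x := by
  simp [E0_eps]

/-- [E0] -/
theorem g2_equiv_autO (F : Type*) [Field F] : Nonempty (G2 F ≃* AutO F) := by
  have hmap : (G2 F).map (E0_eps F).toMonoidHom = AutO F := by
    ext f
    constructor
    · rintro ⟨g, hg, rfl⟩
      rw [mem_AutO]
      intro x y
      have := hg x y
      simpa [E0_eps_apply] using this
    · intro hf
      refine ⟨(E0_eps F).symm f, ?_, by simp⟩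
      intro x y
      rw [mem_AutO] at hf
      have h1 : ∀ x, (Units.coeHom (Matrix (Fin 8) (Fin 8) F) ((E0_eps F).symm f)).mulVec x = f x := by
        intro x
        have := E0_eps_apply F ((E0_eps F).symm f) x
        rw [MulEquiv.apply_symm_apply] at this
        exact this.symm
      rw [h1, h1, h1]
      exact hf x y
  exact ⟨((E0_eps F).subgroupMap (G2 F)).trans (MulEquiv.subgroupCongr hmap)⟩

end Cfsg.Agent.Lib.Helper97.G2Syl
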